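import Cfsg.Agent.CosetEnum.Glue

/-!
Order bounds for a group generated by three elements from a chain of coset enumerations whose
letters stand for words in the generators.
-/

set_option autoImplicit false

namespace Cfsg.Agent.SUPres.Small

open Cfsg.Agent.CosetCert Cfsg.Agent.CosetEnum

/-- Inverse letters: `1..6` are the three generators and their inverses. -/
def invl : List ℕ := [0, 2, 1, 4, 3, 6, 5]

/-- Inverse of a letter. -/
def linv (l : ℕ) : ℕ := invl.getD l 0

/-- Formal inverse of a word. -/
def winv (w : List ℕ) : List ℕ := w.reverse.map linv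

/-- Free reduction. -/
def fred : List ℕ → List ℕ
  | [] => []
  | l :: ls => match fred ls with
    | [] => [l]
    | h :: t => if linv l = h then t else l :: h :: t

/-- Substitute words for letters. -/
def flat (sub : List (List ℕ)) (w : List ℕ) : List ℕ := w.flatMap fun l => sub.getD l []

/-- One enumeration, with the meaning of its letters. -/
structure Step where
  /-- the certificate -/
  B : BoundData
  /-- letters as words -/
  sub : List (List ℕ)

/-- The reduced words of the letters in use. -/
def Step.imgs (S : Step) : List (List ℕ) := S.B.letters.map fun l => fred (S.sub.getD l [])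

/-- The checks of a step over a list of generating words, for a list of relators. -/
def Step.ok (S : Step) (rels prev : List (List ℕ)) : Bool :=
  decide (S.B.invl.length = S.sub.length ∧ S.sub.getD 0 [] = []) &&
    (((List.range S.sub.length).all fun l =>
      decide (fred (S.sub.getD (S.B.inv l) []) = fred (winv (S.sub.getD l [])))) &&
    ((S.B.words.all fun u => decide (fred (flat S.sub u) ∈ [] :: rels)) &&
    (S.B.subs.all fun u => decide (fred (flat S.sub u) ∈ [] :: prev))))

/-- The checks of a chain of steps. -/
def chainOk (rels : List (List ℕ)) : List (List ℕ) → List Step → Bool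
  | _, [] => true
  | prev, S :: Ss => S.ok rels prev && chainOk rels S.imgs Ss

/-- The generating words at the end of a chain. -/
def chainLast : List (List ℕ) → List Step → List (List ℕ)
  | prev, [] => prev
  | _, S :: Ss => chainLast S.imgs Ss

/-- The product of the indices. -/
def chainN : List Step → ℕ
  | [] => 1
  | S :: Ss => S.B.N * chainN Ss

section Bound

variable {G : Type*} [Group G] {g : ℕ → G}

theorem pval_winv (hginv : ∀ l, g (linv l) = (g l)⁻¹) (w : List ℕ) :
    pval g (winv w) = (pval g w)⁻¹ := by
  induction w with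
  | nil => simp [winv, pval]
  | cons l ls ih =>
    have e : winv (l :: ls) = winv ls ++ [linv l] := by simp [winv]
    rw [e, pval_append, ih]
    simp [pval, hginv, mul_inv_rev]

theorem pval_fred (hginv : ∀ l, g (linv l) = (g l)⁻¹) (w : List ℕ) :
    pval g (fred w) = pval g w := by
  induction w with
  | nil => rfl
  | cons l ls ih =>
    simp only [fred]
    cases hfr : fred ls with
    | nil =>
      rw [hfr] at ih
      simp only [pval] at ih ⊢
      rw [← ih]
    | cons h t =>
      rw [hfr] at ih
      simp only [pval] at ih ⊢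
      split
      · next hh => rw [← ih, ← hh, hginv, inv_mul_cancel_right]
      · simp only [pval]; rw [← ih]

theorem pval_flat (sub : List (List ℕ)) (w : List ℕ) :
    pval g (flat sub w) = pval (fun l => pval g (sub.getD l [])) w := by
  induction w with
  | nil => rfl
  | cons l ls ih =>
    show pval g (sub.getD l [] ++ flat sub ls) = _
    rw [pval_append, ih]
    rfl

/-- The subgroup generated by a list of words. -/
def span (g : ℕ → G) (imgs : List (List ℕ)) : Subgroup G :=
  Subgroup.closure {x | ∃ w ∈ imgs, pval g w = x}

theorem chain_bound (hg0 : g 0 = 1) (hginv : ∀ l, g (linv l) = (g l)⁻¹) (rels : List (List ℕ))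
    (hrel : ∀ u ∈ rels, pval g u = 1) :
    ∀ (Ss : List Step) (prev : List (List ℕ)) (M : ℕ), chainOk rels prev Ss = true →
      (∀ S ∈ Ss, S.B.Valid) → Finite (span g prev) ∧ Nat.card (span g prev) ≤ M →
      Finite (span g (chainLast prev Ss)) ∧
        Nat.card (span g (chainLast prev Ss)) ≤ chainN Ss * M := by
  intro Ss
  induction Ss with
  | nil => intro prev M _ _ h; simpa [chainLast, chainN] using h
  | cons S Ss ih =>
    intro prev M hok hval h
    simp only [chainOk, Bool.and_eq_true] at hok
    obtain ⟨hS, hrest⟩ := hok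
    simp only [Step.ok, Bool.and_eq_true, decide_eq_true_eq, List.all_eq_true] at hS
    obtain ⟨⟨hlen, hsub0⟩, hinv, hwords, hsubs⟩ := hS
    let g' : ℕ → G := fun l => pval g (S.sub.getD l [])
    have hg'0 : g' 0 = 1 := by simp only [g', hsub0]; rfl
    have hg'inv : ∀ l, g' (S.B.inv l) = (g' l)⁻¹ := by
      intro l
      rcases lt_or_ge l S.sub.length with hl | hl
      · have e := congrArg (pval g) (hinv l (List.mem_range.2 hl))
        rw [pval_fred hginv, pval_fred hginv, pval_winv hginv] at e
        exact e
      · have hi : S.B.inv l = 0 := by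
          rw [BoundData.inv, List.getD_eq_default _ _ (by omega)]
        simp only [g', hi, hsub0, List.getD_eq_default _ _ hl]
        simp [pval]
    have hflat : ∀ u, pval g' u = pval g (fred (flat S.sub u)) := fun u => by
      rw [pval_fred hginv, pval_flat]
    have hrel' : ∀ u ∈ S.B.words, pval g' u = 1 := by
      intro u hu
      rw [hflat]
      rcases List.mem_cons.1 (hwords u hu) with e | e
      · rw [e]; rfl
      · exact hrel _ e
    have hsub' : ∀ u ∈ S.B.subs, pval g' u ∈ span g prev := by
      intro u hu
      rw [hflat]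
      rcases List.mem_cons.1 (hsubs u hu) with e | e
      · rw [e]; exact Subgroup.one_mem _
      · exact Subgroup.subset_closure ⟨_, e, rfl⟩
    haveI := h.1
    have hb := BoundData.card_closure_le (hval S List.mem_cons_self) g' hg'0 hg'inv hrel'
      (span g prev) hsub' M h.2
    have heq : Subgroup.closure (g' '' {l | l ∈ S.B.letters}) = span g S.imgs := by
      refine congrArg Subgroup.closure (Set.ext fun x => ?_)
      constructor
      · rintro ⟨l, hl, rfl⟩
        exact ⟨_, List.mem_map.2 ⟨l, hl, rfl⟩, pval_fred hginv _⟩
      · rintro ⟨w, hw, rfl⟩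
        obtain ⟨l, hl, rfl⟩ := List.mem_map.1 hw
        exact ⟨l, hl, (pval_fred hginv _).symm⟩
    rw [heq] at hb
    have := ih S.imgs (S.B.N * M) hrest (fun T hT => hval T (List.mem_cons_of_mem _ hT)) hb
    simpa [chainLast, chainN, mul_assoc, mul_comm, mul_left_comm] using this

end Bound

/-- Generators in a free group. -/
def fg : ℕ → FreeGroup (Fin 3)
  | 1 => FreeGroup.of 0
  | 2 => (FreeGroup.of 0)⁻¹
  | 3 => FreeGroup.of 1
  | 4 => (FreeGroup.of 1)⁻¹
  | 5 => FreeGroup.of 2
  | 6 => (FreeGroup.of 2)⁻¹
  | _ => 1

theorem fg_inv (l : ℕ) : fg (linv l) = (fg l)⁻¹ := by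
  rcases l with _ | _ | _ | _ | _ | _ | _ | l <;> simp [linv, invl, fg]

theorem map_pval {G G' : Type*} [Group G] [Group G'] (φ : G →* G') (f : ℕ → G) (u : List ℕ) :
    φ (pval f u) = pval (fun l => φ (f l)) u := by
  induction u with
  | nil => simp [pval]
  | cons l ls ih => simp [pval, ih]

/-- The relators in a free group. -/
noncomputable def relsF (rels : List (List ℕ)) : Finset (FreeGroup (Fin 3)) :=
  (rels.map fun u => pval fg u).toFinset

theorem card_relsF (rels : List (List ℕ)) : (relsF rels).card ≤ rels.length :=
  (List.toFinset_card_le _).trans (by simp)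

/-- **The bound on the presented group.** -/
theorem card_presented_le (rels : List (List ℕ)) (Ss : List Step) (hok : chainOk rels [] Ss = true)
    (hval : ∀ S ∈ Ss, S.B.Valid)
    (hl : [1] ∈ chainLast [] Ss ∧ [3] ∈ chainLast [] Ss ∧ [5] ∈ chainLast [] Ss) :
    Finite (PresentedGroup (↑(relsF rels) : Set (FreeGroup (Fin 3)))) ∧
      Nat.card (PresentedGroup (↑(relsF rels) : Set (FreeGroup (Fin 3)))) ≤ chainN Ss := by
  let g : ℕ → PresentedGroup (↑(relsF rels) : Set (FreeGroup (Fin 3))) :=
    fun l => PresentedGroup.mk _ (fg l)
  have hg0 : g 0 = 1 := by simp [g, fg]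
  have hginv : ∀ l, g (linv l) = (g l)⁻¹ := fun l => by simp only [g, fg_inv, map_inv]
  have hrel : ∀ u ∈ rels, pval g u = 1 := by
    intro u hu
    show pval (fun l => PresentedGroup.mk _ (fg l)) u = 1
    rw [← map_pval]
    refine PresentedGroup.one_of_mem (Finset.mem_coe.2 ?_)
    rw [relsF, List.mem_toFinset]
    exact List.mem_map.2 ⟨u, hu, rfl⟩
  have h0 : span g [] = ⊥ := by simp [span]
  have h := chain_bound hg0 hginv rels hrel Ss [] 1 hok hval
    (by rw [h0]; exact ⟨inferInstance, (Subgroup.card_bot).le⟩)
  have htop : span g (chainLast [] Ss) = ⊤ := by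
    rw [eq_top_iff, ← PresentedGroup.closure_range_of, span, Subgroup.closure_le]
    rintro _ ⟨i, rfl⟩
    refine Subgroup.subset_closure ?_
    fin_cases i
    exacts [⟨[1], hl.1, by simp [pval, g, fg]; rfl⟩, ⟨[3], hl.2.1, by simp [pval, g, fg]; rfl⟩,
      ⟨[5], hl.2.2, by simp [pval, g, fg]; rfl⟩]
  rw [htop, mul_one] at h
  haveI := h.1
  refine ⟨Finite.of_equiv _ (Subgroup.topEquiv (G := PresentedGroup _)).toEquiv, ?_⟩
  rw [← Subgroup.card_top]
  exact h.2

end Cfsg.Agent.SUPres.Small
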