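import Cfsg.Agent.Spec.UnitaryBasic
import Cfsg.Agent.SUPres.Small.Words

/-!
Elements of `SU_n(q)` and their action on vectors, with field elements coded by numbers.
-/

set_option autoImplicit false

open Matrix

namespace Cfsg.Agent.SUPres.Small

open Cfsg.Agent.CosetCert

/-- Operation tables of a field on the codes `0, ..., Q - 1`; `0` and `1` code zero and one. -/
structure Codes where
  /-- number of codes -/
  Q : ℕ
  /-- addition, 8 bits an entry -/
  addT : ℕ
  /-- multiplication, 8 bits an entry -/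
  mulT : ℕ
  /-- conjugation, 8 bits an entry -/
  conjT : ℕ
  /-- minus one -/
  m1 : ℕ

namespace Codes

variable (C : Codes)

/-- Sum. -/
noncomputable def add (i j : ℕ) : ℕ :=
  Nat.land (Nat.shiftRight C.addT (Nat.mul 8 (Nat.add (Nat.mul C.Q i) j))) 255

/-- Product. -/
noncomputable def mul (i j : ℕ) : ℕ :=
  Nat.land (Nat.shiftRight C.mulT (Nat.mul 8 (Nat.add (Nat.mul C.Q i) j))) 255

/-- Conjugate. -/
noncomputable def cj (i : ℕ) : ℕ := Nat.land (Nat.shiftRight C.conjT (Nat.mul 8 i)) 255

/-- What the codes must satisfy for an interpretation `d`. -/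
structure Sound {K : Type*} [Field K] (d : ℕ → K) (q : ℕ) : Prop where
  two : 2 ≤ C.Q
  zero : d 0 = 0
  one : d 1 = 1
  m1_lt : C.m1 < C.Q
  m1_eq : d C.m1 = -1
  inj : ∀ i < C.Q, ∀ j < C.Q, d i = d j → i = j
  add_ok : ∀ i < C.Q, ∀ j < C.Q, C.add i j < C.Q ∧ d (C.add i j) = d i + d j
  mul_ok : ∀ i < C.Q, ∀ j < C.Q, C.mul i j < C.Q ∧ d (C.mul i j) = d i * d j
  cj_ok : ∀ i < C.Q, C.cj i < C.Q ∧ d (C.cj i) = d i ^ q

theorem Sound.map {K L : Type*} [Field K] [Field L] {d : ℕ → K} {q : ℕ} (h : C.Sound d q)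
    (ι : K →+* L) : C.Sound (fun i => ι (d i)) q where
  two := h.two
  zero := by rw [h.zero, map_zero]
  one := by rw [h.one, map_one]
  m1_lt := h.m1_lt
  m1_eq := by rw [h.m1_eq, map_neg, map_one]
  inj i hi j hj e := h.inj i hi j hj (ι.injective e)
  add_ok i hi j hj := ⟨(h.add_ok i hi j hj).1, by rw [(h.add_ok i hi j hj).2, map_add]⟩
  mul_ok i hi j hj := ⟨(h.mul_ok i hi j hj).1, by rw [(h.mul_ok i hi j hj).2, map_mul]⟩
  cj_ok i hi := ⟨(h.cj_ok i hi).1, by rw [(h.cj_ok i hi).2, map_pow]⟩

/-- Dot product. -/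
noncomputable def dotc (r : List ℕ) : List ℕ → ℕ :=
  List.rec (motive := fun _ => List ℕ → ℕ) (fun _ => 0)
    (fun x _ ih v => C.add (C.mul x v.headI) (ih v.tail)) r

/-- Matrix times vector. -/
noncomputable def app (M : List (List ℕ)) (v : List ℕ) : List ℕ := M.map fun r => C.dotc r v

/-- Entry of a matrix. -/
def ent (M : List (List ℕ)) (i j : ℕ) : ℕ := (M.getD i []).getD j 0

/-- Sum of a list. -/
noncomputable def sumc : List ℕ → ℕ
  | [] => 0
  | x :: xs => C.add x (sumc xs)

/-- Determinant by expansion along the first row. -/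
noncomputable def detc : (m : ℕ) → (Fin m → Fin m → ℕ) → ℕ
  | 0, _ => 1
  | m + 1, A => C.sumc (List.ofFn fun j : Fin (m + 1) =>
      C.mul (C.mul (if (j : ℕ) % 2 = 0 then 1 else C.m1) (A 0 j))
        (detc m fun a b => A a.succ (j.succAbove b)))

/-- Bounded entries and the right length. -/
def wfV (n : ℕ) (v : List ℕ) : Bool := decide (v.length = n) && v.all fun x => Nat.blt x C.Q

/-- A square matrix with bounded entries. -/
def wfM (n : ℕ) (M : List (List ℕ)) : Bool := decide (M.length = n) && M.all (C.wfV n)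

/-- One and zeros. -/
def basisv (n j : ℕ) : List ℕ := (List.range n).map fun i => if i = j then 1 else 0

/-- Column. -/
def colv (M : List (List ℕ)) (j : ℕ) : List ℕ := M.map fun r => r.getD j 0

/-- The checks for an element of `SU_n`. -/
noncomputable def elemOk (n : ℕ) (M : List (List ℕ)) : Bool :=
  C.wfM n M && (decide (C.detc n (fun i j => ent M i j) = 1) &&
    ((List.range n).all fun i => (List.range n).all fun j =>
      decide (C.dotc ((colv M i).map C.cj) (colv M j) = if i = j then 1 else 0)))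

end Codes

/-- A vector from its codes. -/
def vecF {F : Type*} (d : ℕ → F) (n : ℕ) (v : List ℕ) : Fin n → F := fun i => d (v.getD i 0)

/-- A matrix from its codes. -/
def matF {F : Type*} (d : ℕ → F) (n : ℕ) (M : List (List ℕ)) : Matrix (Fin n) (Fin n) F :=
  Matrix.of fun i j => d (Codes.ent M i j)

/-- Letter values: the code `0` and codes out of range give the identity. -/
def lmat (n : ℕ) (lets : List (List (List ℕ))) (l : ℕ) : List (List ℕ) :=
  if l = 0 then (List.range n).map (Codes.basisv n)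
  else lets.getD (l - 1) ((List.range n).map (Codes.basisv n))

/-- A word acting on a coded vector. -/
noncomputable def vrun (C : Codes) (n : ℕ) (lets : List (List (List ℕ))) (w : List ℕ) :
    List ℕ → List ℕ :=
  List.rec (motive := fun _ => List ℕ → List ℕ) (fun v => v)
    (fun l _ ih v => ih (C.app (lmat n lets l) v)) w

/-- All the checks on the letters and relators of a case. -/
structure CaseOk (C : Codes) (n : ℕ) (lets : List (List (List ℕ))) (rels : List (List ℕ)) : Prop where
  len : lets.length = 6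
  elem : ∀ M ∈ lets, C.elemOk n M = true
  inv : ∀ l ∈ List.range 7, ∀ j ∈ List.range n,
    vrun C n lets [l, linv l] (Codes.basisv n j) = Codes.basisv n j
  rel : ∀ u ∈ rels, ∀ j ∈ List.range n, vrun C n lets u (Codes.basisv n j) = Codes.basisv n j

section Sem

variable {F : Type*} [Field F] {C : Codes} {d : ℕ → F} {q : ℕ} (hC : C.Sound d q)

include hC

theorem wf_getD {n : ℕ} {v : List ℕ} (h : C.wfV n v = true) (i : ℕ) : v.getD i 0 < C.Q := by
  simp only [Codes.wfV, Bool.and_eq_true, List.all_eq_true] at h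
  rcases lt_or_ge i v.length with hi | hi
  · rw [List.getD_eq_getElem _ _ hi]
    exact Nat.le_of_ble_eq_true (h.2 _ (List.getElem_mem hi))
  · rw [List.getD_eq_default _ _ hi]; have := hC.two; omega

theorem dotc_spec : ∀ (r v : List ℕ) (m : ℕ), C.wfV m r = true → C.wfV m v = true →
    C.dotc r v < C.Q ∧ d (C.dotc r v) = ∑ i : Fin m, d (r.getD i 0) * d (v.getD i 0) := by
  intro r
  induction r with
  | nil =>
    intro v m hr _
    simp [Codes.wfV] at hr
    subst hr
    exact ⟨lt_of_lt_of_le Nat.zero_lt_two hC.two, by simpa [Codes.dotc] using hC.zero⟩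
  | cons x xs ih =>
    intro v m hr hv
    simp only [Codes.wfV, Bool.and_eq_true, decide_eq_true_eq, List.all_eq_true] at hr hv
    obtain ⟨k, rfl⟩ : ∃ k, m = k + 1 := ⟨xs.length, by simp at hr; omega⟩
    obtain ⟨y, ys, rfl⟩ : ∃ y ys, v = y :: ys := List.exists_cons_of_length_eq_add_one hv.1
    have hx : x < C.Q := Nat.le_of_ble_eq_true (hr.2 x List.mem_cons_self)
    have hy : y < C.Q := Nat.le_of_ble_eq_true (hv.2 y List.mem_cons_self)
    have h1 := ih ys k
      (by simp only [Codes.wfV, Bool.and_eq_true, decide_eq_true_eq, List.all_eq_true]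
          exact ⟨by simpa using hr.1, fun z hz => hr.2 z (List.mem_cons_of_mem _ hz)⟩)
      (by simp only [Codes.wfV, Bool.and_eq_true, decide_eq_true_eq, List.all_eq_true]
          exact ⟨by simpa using hv.1, fun z hz => hv.2 z (List.mem_cons_of_mem _ hz)⟩)
    have h2 := hC.mul_ok x hx y hy
    have h3 := hC.add_ok _ h2.1 _ h1.1
    refine ⟨h3.1, ?_⟩
    show d (C.add (C.mul x y) (C.dotc xs ys)) = _
    rw [h3.2, h2.2, h1.2, Fin.sum_univ_succ]
    rfl

theorem app_spec {n : ℕ} {M : List (List ℕ)} {v : List ℕ} (hM : C.wfM n M = true)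
    (hv : C.wfV n v = true) :
    C.wfV n (C.app M v) = true ∧ vecF d n (C.app M v) = matF d n M *ᵥ vecF d n v := by
  simp only [Codes.wfM, Bool.and_eq_true, decide_eq_true_eq, List.all_eq_true] at hM
  constructor
  · simp only [Codes.wfV, Bool.and_eq_true, decide_eq_true_eq, List.all_eq_true]
    refine ⟨by simp [Codes.app, hM.1], fun x hx => ?_⟩
    obtain ⟨r, hr, rfl⟩ := List.mem_map.1 hx
    exact Nat.ble_eq_true_of_le (dotc_spec hC r v n (hM.2 r hr) hv).1
  · funext i
    have hi : (i : ℕ) < M.length := by rw [hM.1]; exact i.2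
    simp only [vecF, matF, Matrix.mulVec, dotProduct, Matrix.of_apply]
    rw [List.getD_eq_getElem _ _ (by simpa [Codes.app] using hi)]
    simp only [Codes.app, List.getElem_map]
    rw [(dotc_spec hC _ v n (hM.2 _ (List.getElem_mem hi)) hv).2]
    simp only [Codes.ent, List.getD_eq_getElem _ _ hi]

theorem sumc_spec (l : List ℕ) (h : ∀ x ∈ l, x < C.Q) :
    C.sumc l < C.Q ∧ d (C.sumc l) = (l.map d).sum := by
  induction l with
  | nil => exact ⟨lt_of_lt_of_le Nat.zero_lt_two hC.two, by simpa [Codes.sumc] using hC.zero⟩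
  | cons x xs ih =>
    obtain ⟨h1, h2⟩ := ih fun y hy => h y (List.mem_cons_of_mem _ hy)
    have h3 := hC.add_ok x (h x List.mem_cons_self) _ h1
    exact ⟨h3.1, by rw [Codes.sumc, h3.2, h2, List.map_cons, List.sum_cons]⟩

theorem detc_spec : ∀ (m : ℕ) (A : Fin m → Fin m → ℕ), (∀ i j, A i j < C.Q) →
    C.detc m A < C.Q ∧ d (C.detc m A) = (Matrix.of fun i j => d (A i j)).det := by
  intro m
  induction m with
  | zero => intro A _; exact ⟨lt_of_lt_of_le one_lt_two hC.two, by simp [Codes.detc, hC.one]⟩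
  | succ m ih =>
    intro A hA
    have hsg : ∀ j : Fin (m + 1), (if (j : ℕ) % 2 = 0 then 1 else C.m1) < C.Q ∧
        d (if (j : ℕ) % 2 = 0 then 1 else C.m1) = (-1 : F) ^ (j : ℕ) := fun j => by
      rcases Nat.mod_two_eq_zero_or_one j with h | h
      · rw [if_pos h, hC.one, (Nat.even_iff.2 h).neg_one_pow]
        exact ⟨lt_of_lt_of_le one_lt_two hC.two, rfl⟩
      · rw [if_neg (by omega), hC.m1_eq, (Nat.odd_iff.2 h).neg_one_pow]
        exact ⟨hC.m1_lt, rfl⟩
    have hterm := fun j : Fin (m + 1) =>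
      let h1 := hC.mul_ok _ (hsg j).1 _ (hA 0 j)
      let h2 := ih (fun a b => A a.succ (j.succAbove b)) fun a b => hA _ _
      And.intro (hC.mul_ok _ h1.1 _ h2.1) (And.intro h1.2 h2.2)
    obtain ⟨h1, h2⟩ := sumc_spec hC (List.ofFn fun j : Fin (m + 1) =>
      C.mul (C.mul (if (j : ℕ) % 2 = 0 then 1 else C.m1) (A 0 j))
        (C.detc m fun a b => A a.succ (j.succAbove b))) (by
      intro x hx
      obtain ⟨j, rfl⟩ := List.mem_ofFn.1 hx
      exact (hterm j).1.1)
    refine ⟨h1, ?_⟩
    rw [Codes.detc, h2, List.map_ofFn, List.sum_ofFn, Matrix.det_succ_row_zero]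
    refine Finset.sum_congr rfl fun j _ => ?_
    simp only [Function.comp_apply]
    rw [(hterm j).1.2, (hterm j).2.1, (hterm j).2.2, (hsg j).2]
    rfl

theorem wf_basisv (n j : ℕ) : C.wfV n (Codes.basisv n j) = true := by
  simp only [Codes.wfV, Bool.and_eq_true, decide_eq_true_eq, List.all_eq_true]
  refine ⟨by simp [Codes.basisv], fun x hx => ?_⟩
  obtain ⟨i, -, rfl⟩ := List.mem_map.1 hx
  have := hC.two
  refine Nat.ble_eq_true_of_le ?_
  split <;> omega

theorem vecF_basisv {n : ℕ} (j : Fin n) : vecF d n (Codes.basisv n j) = Pi.single j 1 := by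
  funext i
  rw [vecF, List.getD_eq_getElem _ _ (by simp [Codes.basisv])]
  simp only [Codes.basisv, List.getElem_map, List.getElem_range, Pi.single_apply, Fin.val_inj]
  split <;> simp [hC.one, hC.zero]

theorem vecF_inj {n : ℕ} {v w : List ℕ} (hv : C.wfV n v = true) (hw : C.wfV n w = true)
    (h : vecF d n v = vecF d n w) : v = w := by
  have hv' := hv; have hw' := hw
  simp only [Codes.wfV, Bool.and_eq_true, decide_eq_true_eq] at hv' hw'
  refine List.ext_getElem (by rw [hv'.1, hw'.1]) fun i h1 h2 => ?_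
  have := hC.inj _ (wf_getD hC hv i) _ (wf_getD hC hw i) (congrFun h ⟨i, by rw [← hv'.1]; exact h1⟩)
  rwa [List.getD_eq_getElem _ _ h1, List.getD_eq_getElem _ _ h2] at this

theorem wf_id (n : ℕ) : C.wfM n ((List.range n).map (Codes.basisv n)) = true := by
  simp only [Codes.wfM, Bool.and_eq_true, decide_eq_true_eq, List.all_eq_true]
  refine ⟨by simp, fun r hr => ?_⟩
  obtain ⟨i, -, rfl⟩ := List.mem_map.1 hr
  exact wf_basisv hC n i

theorem matF_id (n : ℕ) : matF d n ((List.range n).map (Codes.basisv n)) = 1 := by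
  ext i j
  simp only [matF, Codes.ent, Matrix.of_apply]
  rw [show ((List.range n).map (Codes.basisv n)).getD i [] = Codes.basisv n i by
    rw [List.getD_eq_getElem _ _ (by simp), List.getElem_map, List.getElem_range]]
  rw [show d ((Codes.basisv n i).getD j 0) = vecF d n (Codes.basisv n i) j from rfl, vecF_basisv hC,
    Matrix.one_apply, Pi.single_apply]
  simp only [eq_comm]

variable [Fintype F] (hF : Fintype.card F = q ^ 2)

include hF

theorem elem_mem {n : ℕ} {M : List (List ℕ)} (h : C.elemOk n M = true) :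
    C.wfM n M = true ∧ (matF d n M).det = 1 ∧
      Spec.Unitary.adj hF (matF d n M) * matF d n M = 1 := by
  simp only [Codes.elemOk, Bool.and_eq_true, decide_eq_true_eq, List.all_eq_true,
    List.mem_range] at h
  obtain ⟨hw, hdet, hu⟩ := h
  have hw' := hw
  simp only [Codes.wfM, Bool.and_eq_true, decide_eq_true_eq, List.all_eq_true] at hw'
  have hent : ∀ i j : ℕ, Codes.ent M i j < C.Q := fun i j => by
    rw [Codes.ent]
    rcases lt_or_ge i M.length with hi | hi
    · rw [List.getD_eq_getElem _ _ hi]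
      exact wf_getD hC (hw'.2 _ (List.getElem_mem hi)) j
    · rw [List.getD_eq_default _ _ hi]; have := hC.two; simp; omega
  refine ⟨hw, ?_, ?_⟩
  · have := (detc_spec hC n (fun i j => Codes.ent M i j) fun i j => hent i j).2
    rw [hdet, hC.one] at this
    exact this.symm
  · ext i j
    rw [Matrix.mul_apply]
    have hcol : ∀ k : ℕ, C.wfV n (Codes.colv M k) = true := fun k => by
      simp only [Codes.wfV, Bool.and_eq_true, decide_eq_true_eq, List.all_eq_true]
      refine ⟨by simp [Codes.colv, hw'.1], fun x hx => ?_⟩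
      obtain ⟨r, hr, rfl⟩ := List.mem_map.1 hx
      exact Nat.ble_eq_true_of_le (wf_getD hC (hw'.2 r hr) k)
    have hcj : C.wfV n ((Codes.colv M i).map C.cj) = true := by
      simp only [Codes.wfV, Bool.and_eq_true, decide_eq_true_eq, List.all_eq_true]
      refine ⟨by simp [Codes.colv, hw'.1], fun x hx => ?_⟩
      obtain ⟨y, hy, rfl⟩ := List.mem_map.1 hx
      refine Nat.ble_eq_true_of_le (hC.cj_ok y ?_).1
      have := hcol i
      simp only [Codes.wfV, Bool.and_eq_true, List.all_eq_true] at this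
      exact Nat.le_of_ble_eq_true (this.2 y hy)
    have h2 := (dotc_spec hC _ _ n hcj (hcol j)).2
    rw [hu i i.2 j j.2] at h2
    have h3 : (1 : Matrix (Fin n) (Fin n) F) i j = d (if (i : ℕ) = j then 1 else 0) := by
      rw [Matrix.one_apply]
      simp only [Fin.val_inj]
      split <;> simp [hC.one, hC.zero]
    rw [h3, h2]
    refine Finset.sum_congr rfl fun k _ => ?_
    have hk : (k : ℕ) < M.length := by rw [hw'.1]; exact k.2
    rw [List.getD_eq_getElem _ _ (by simpa [Codes.colv] using hk),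
      List.getD_eq_getElem _ _ (by simpa [Codes.colv] using hk)]
    simp only [Codes.colv, List.getElem_map, Spec.Unitary.adj, Matrix.transpose_apply,
      Matrix.map_apply, Spec.Unitary.conjHom_apply, matF, Matrix.of_apply, Codes.ent,
      List.getD_eq_getElem _ _ hk]
    rw [(hC.cj_ok _ (wf_getD hC (hw'.2 _ (List.getElem_mem hk)) i)).2]

/-- **The letters as elements of `SU_n(q)`.** -/
theorem exists_letters {n : ℕ} {lets : List (List (List ℕ))} {rels : List (List ℕ)}
    (h : CaseOk C n lets rels) :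
    ∃ G : ℕ → Cfsg.SU n F q, G 0 = 1 ∧ (∀ l, G (linv l) = (G l)⁻¹) ∧
      (∀ u ∈ rels, pval G u = 1) ∧
      ∀ u v, C.wfV n v = true → C.wfV n (vrun C n lets u v) = true ∧
        ((pval G u).1 : Matrix (Fin n) (Fin n) F) *ᵥ vecF d n v = vecF d n (vrun C n lets u v) := by
  have hl : ∀ l, C.wfM n (lmat n lets l) = true ∧ (matF d n (lmat n lets l)).det = 1 ∧
      Spec.Unitary.adj hF (matF d n (lmat n lets l)) * matF d n (lmat n lets l) = 1 := by
    have hid : C.wfM n ((List.range n).map (Codes.basisv n)) = true ∧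
        (matF d n ((List.range n).map (Codes.basisv n))).det = 1 ∧
        Spec.Unitary.adj hF (matF d n ((List.range n).map (Codes.basisv n))) *
          matF d n ((List.range n).map (Codes.basisv n)) = 1 := by
      rw [matF_id hC]
      exact ⟨wf_id hC n, det_one, by rw [Spec.Unitary.adj_one, mul_one]⟩
    intro l
    unfold lmat
    split
    · exact hid
    · rcases lt_or_ge (l - 1) lets.length with hlt | hge
      · rw [List.getD_eq_getElem _ _ hlt]; exact elem_mem hC hF (h.elem _ (List.getElem_mem hlt))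
      · rw [List.getD_eq_default _ _ hge]; exact hid
  let G : ℕ → Cfsg.SU n F q := fun l =>
    ⟨⟨matF d n (lmat n lets l), (hl l).2.1⟩, (Spec.Unitary.mem_SU_iff hF _).2 (hl l).2.2⟩
  have hact : ∀ u v, C.wfV n v = true → C.wfV n (vrun C n lets u v) = true ∧
      ((pval G u).1 : Matrix (Fin n) (Fin n) F) *ᵥ vecF d n v = vecF d n (vrun C n lets u v) := by
    intro u
    induction u with
    | nil => intro v hv; exact ⟨hv, by show (1 : Matrix (Fin n) (Fin n) F) *ᵥ _ = _; rw [one_mulVec]; rfl⟩
    | cons l ls ih =>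
      intro v hv
      obtain ⟨h1, h2⟩ := app_spec hC (hl l).1 hv
      obtain ⟨h3, h4⟩ := ih _ h1
      refine ⟨h3, ?_⟩
      show (((pval G ls).1 : Matrix (Fin n) (Fin n) F) * matF d n (lmat n lets l)) *ᵥ _ = _
      rw [← mulVec_mulVec, ← h2, h4]
      rfl
  have hone : ∀ u, (∀ j ∈ List.range n, vrun C n lets u (Codes.basisv n j) = Codes.basisv n j) →
      pval G u = 1 := fun u hu => by
    refine Subtype.ext (Subtype.ext ?_)
    refine Matrix.ext_of_mulVec_single fun j => ?_
    show ((pval G u).1 : Matrix (Fin n) (Fin n) F) *ᵥ _ = (1 : Matrix (Fin n) (Fin n) F) *ᵥ _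
    rw [← vecF_basisv hC j, (hact u _ (wf_basisv hC n j)).2, hu j (List.mem_range.2 j.2), one_mulVec]
  have hG0 : ∀ l, lmat n lets l = (List.range n).map (Codes.basisv n) → G l = 1 := fun l e =>
    Subtype.ext (Subtype.ext (by
      show matF d n (lmat n lets l) = (1 : Matrix (Fin n) (Fin n) F)
      rw [e, matF_id hC]))
  refine ⟨G, hG0 0 rfl, fun l => ?_, fun u hu => hone u (h.rel u hu), hact⟩
  rcases lt_or_ge l 7 with hlt | hge
  · have e := hone [l, linv l] (h.inv l (List.mem_range.2 hlt))
    simp only [pval, one_mul] at e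
    exact eq_inv_of_mul_eq_one_left e
  · have e1 : linv l = 0 := List.getD_eq_default _ _ (by simpa [invl] using hge)
    have e2 : G l = 1 := hG0 l (by
      rw [lmat, if_neg (by omega), List.getD_eq_default _ _ (by rw [h.len]; omega)])
    rw [e1, e2, hG0 0 rfl, inv_one]

end Sem

end Cfsg.Agent.SUPres.Small
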