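import Cfsg.Agent.GKKL.Derive
import Cfsg.Agent.SUPres.Small.Model

/-!
A lower bound from orbits on coded vectors, and the presentation that results.
-/

set_option autoImplicit false

open Matrix

namespace Cfsg.Agent.SUPres.Small

open Cfsg.Agent.CosetCert Cfsg.Agent.CosetEnum

/-- Coded vector number `r`: `n` entries of 8 bits. -/
noncomputable def unvec (n : ℕ) : ℕ → List ℕ :=
  Nat.rec (motive := fun _ => ℕ → List ℕ) (fun _ => [])
    (fun _ ih c => Nat.land c 255 :: ih (Nat.shiftRight c 8)) n

/-- Number of a coded vector in base `Q`. -/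
noncomputable def vnum (Q : ℕ) (v : List ℕ) : ℕ :=
  List.rec (motive := fun _ => ℕ) 0 (fun x _ ih => Nat.add x (Nat.mul Q ih)) v

/-- One level: words fixing the earlier vectors, and part of the orbit of the first vector. -/
structure VLevel where
  /-- generating words -/
  gens : List (List ℕ)
  /-- number of orbit points -/
  size : ℕ
  /-- packed vector of a rank -/
  vec : PTree
  /-- rank of a vector number -/
  rank : PTree
  /-- 256 times the rank of the parent, plus the generator -/
  par : PTree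

/-- Vector of a rank. -/
noncomputable def VLevel.at' (L : VLevel) (n r : ℕ) : List ℕ := unvec n (L.vec.get 64 r)

/-- Check one rank. -/
noncomputable def VLevel.ok (L : VLevel) (C : Codes) (n : ℕ) (lets : List (List (List ℕ))) (r : ℕ) :
    Bool :=
  C.wfV n (L.at' n r) && (Nat.beq (L.rank.get 32 (vnum C.Q (L.at' n r))) r &&
    cond (Nat.beq r 0) true
      (Nat.blt (Nat.div (L.par.get 32 r) 256) r &&
        (Nat.blt (Nat.mod (L.par.get 32 r) 256) L.gens.length &&
          decide (vrun C n lets (L.gens.getD (Nat.mod (L.par.get 32 r) 256) [])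
            (L.at' n (Nat.div (L.par.get 32 r) 256)) = L.at' n r))))

/-- A valid chain below the vectors `prev`. -/
def VChainValid (C : Codes) (n : ℕ) (lets : List (List (List ℕ))) : List (List ℕ) → List VLevel → Prop
  | _, [] => True
  | prev, L :: Ls =>
    (∀ u ∈ L.gens, ∀ v ∈ prev, C.wfV n v = true ∧ vrun C n lets u v = v) ∧
      (0 < L.size ∧ ∀ r < L.size, L.ok C n lets r = true) ∧
      VChainValid C n lets (L.at' n 0 :: prev) Ls

/-- The product of the orbit sizes. -/
def vProd : List VLevel → ℕ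
  | [] => 1
  | L :: Ls => L.size * vProd Ls

variable {F : Type*} [Field F] [Fintype F] {C : Codes} {d : ℕ → F} {q n : ℕ}
  {lets : List (List (List ℕ))}

/-- **The lower bound.** -/
theorem vProd_le (hC : C.Sound d q) (G : ℕ → Cfsg.SU n F q)
    (hact : ∀ u v, C.wfV n v = true → C.wfV n (vrun C n lets u v) = true ∧
      ((pval G u).1 : Matrix (Fin n) (Fin n) F) *ᵥ vecF d n v = vecF d n (vrun C n lets u v))
    (R : Subgroup (Cfsg.SU n F q)) (hR : ∀ l, G l ∈ R) :
    ∀ (Ls : List VLevel) (prev : List (List ℕ)), VChainValid C n lets prev Ls →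
      vProd Ls ≤ Nat.card {x : Cfsg.SU n F q // x ∈ R ∧
        ∀ v ∈ prev, (x.1 : Matrix (Fin n) (Fin n) F) *ᵥ vecF d n v = vecF d n v} := by
  intro Ls
  induction Ls with
  | nil =>
    intro prev _
    have : Nonempty {x : Cfsg.SU n F q // x ∈ R ∧
        ∀ v ∈ prev, (x.1 : Matrix (Fin n) (Fin n) F) *ᵥ vecF d n v = vecF d n v} :=
      ⟨⟨1, R.one_mem, fun v _ => one_mulVec _⟩⟩
    exact Nat.card_pos
  | cons L Ls ih =>
    intro prev hv
    obtain ⟨hg, ⟨hpos, hok⟩, hrest⟩ := hv
    have hGR : ∀ u, pval G u ∈ R := fun u => by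
      induction u with
      | nil => exact R.one_mem
      | cons l ls ihu => exact R.mul_mem ihu (hR l)
    have hwf : ∀ r < L.size, C.wfV n (L.at' n r) = true := fun r hr => by
      have h := hok r hr
      rw [VLevel.ok, Bool.and_eq_true] at h
      exact h.1
    have htr : ∀ (r : ℕ), r < L.size → ∃ x : Cfsg.SU n F q, x ∈ R ∧
        (∀ v ∈ prev, (x.1 : Matrix (Fin n) (Fin n) F) *ᵥ vecF d n v = vecF d n v) ∧
          (x.1 : Matrix (Fin n) (Fin n) F) *ᵥ vecF d n (L.at' n 0) = vecF d n (L.at' n r) := by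
      intro r
      induction r using Nat.strong_induction_on with
      | _ r ih' =>
        intro hr
        by_cases hr0 : r = 0
        · subst hr0
          exact ⟨1, R.one_mem, fun v _ => one_mulVec _, one_mulVec _⟩
        have h := hok r hr
        simp only [VLevel.ok, Bool.and_eq_true] at h
        have hb : Nat.beq r 0 = false := by
          cases h' : Nat.beq r 0
          · rfl
          · exact absurd (Nat.eq_of_beq_eq_true h') hr0
        have h3 := h.2.2
        rw [hb, cond_false] at h3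
        simp only [Bool.and_eq_true, decide_eq_true_eq] at h3
        obtain ⟨hp, hj, hrun⟩ := h3
        set p := Nat.div (L.par.get 32 r) 256
        set j := Nat.mod (L.par.get 32 r) 256
        have hp' : p < r := Nat.le_of_ble_eq_true hp
        obtain ⟨x, hxR, hxfix, hx⟩ := ih' p hp' (hp'.trans hr)
        have hj' : j < L.gens.length := Nat.le_of_ble_eq_true hj
        have hu : L.gens.getD j [] ∈ L.gens := by
          rw [List.getD_eq_getElem _ _ hj']; exact List.getElem_mem hj'
        refine ⟨pval G (L.gens.getD j []) * x, R.mul_mem (hGR _) hxR, fun v hv' => ?_, ?_⟩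
        · show (((pval G (L.gens.getD j [])).1 : Matrix (Fin n) (Fin n) F) *
            (x.1 : Matrix (Fin n) (Fin n) F)) *ᵥ _ = _
          rw [← mulVec_mulVec, hxfix v hv', (hact _ v (hg _ hu v hv').1).2, (hg _ hu v hv').2]
        · show (((pval G (L.gens.getD j [])).1 : Matrix (Fin n) (Fin n) F) *
            (x.1 : Matrix (Fin n) (Fin n) F)) *ᵥ _ = _
          rw [← mulVec_mulVec, hx, (hact _ _ (hwf p (hp'.trans hr))).2, hrun]
    choose u huR hufix hu using htr
    let Φ : Fin L.size × {x : Cfsg.SU n F q // x ∈ R ∧ ∀ v ∈ L.at' n 0 :: prev,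
          (x.1 : Matrix (Fin n) (Fin n) F) *ᵥ vecF d n v = vecF d n v} →
        {x : Cfsg.SU n F q // x ∈ R ∧
          ∀ v ∈ prev, (x.1 : Matrix (Fin n) (Fin n) F) *ᵥ vecF d n v = vecF d n v} := fun z =>
      ⟨u z.1 z.1.2 * z.2.1, R.mul_mem (huR _ _) z.2.2.1, fun v hv' => by
        show (((u z.1 z.1.2).1 : Matrix (Fin n) (Fin n) F) *
          (z.2.1.1 : Matrix (Fin n) (Fin n) F)) *ᵥ _ = _
        rw [← mulVec_mulVec, z.2.2.2 v (List.mem_cons_of_mem _ hv'), hufix _ _ v hv']⟩
    have hΦ : Function.Injective Φ := by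
      rintro ⟨r, x⟩ ⟨r', x'⟩ h
      have h1 : u r r.2 * x.1 = u r' r'.2 * x'.1 := congrArg Subtype.val h
      have h2 := congrArg (fun z : Cfsg.SU n F q =>
        (z.1 : Matrix (Fin n) (Fin n) F) *ᵥ vecF d n (L.at' n 0)) h1
      change (((u r r.2).1 : Matrix (Fin n) (Fin n) F) * (x.1.1 : Matrix (Fin n) (Fin n) F)) *ᵥ _ =
        (((u r' r'.2).1 : Matrix (Fin n) (Fin n) F) * (x'.1.1 : Matrix (Fin n) (Fin n) F)) *ᵥ _ at h2
      rw [← mulVec_mulVec, ← mulVec_mulVec, x.2.2 _ List.mem_cons_self,
        x'.2.2 _ List.mem_cons_self, hu, hu] at h2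
      have h3 := vecF_inj hC (hwf r r.2) (hwf r' r'.2) h2
      have hrr : (r : ℕ) = r' := by
        have ha := hok r r.2
        have hb := hok r' r'.2
        simp only [VLevel.ok, Bool.and_eq_true] at ha hb
        have e1 := Nat.eq_of_beq_eq_true ha.2.1
        have e2 := Nat.eq_of_beq_eq_true hb.2.1
        rw [h3, e2] at e1
        exact e1.symm
      obtain rfl : r = r' := Fin.ext hrr
      rw [mul_left_cancel_iff] at h1
      rw [Subtype.ext h1]
    calc vProd (L :: Ls) = L.size * vProd Ls := rfl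
      _ ≤ L.size * _ := Nat.mul_le_mul le_rfl (ih _ hrest)
      _ = Nat.card (Fin L.size × _) := by rw [Nat.card_prod, Nat.card_fin]
      _ ≤ _ := Nat.card_le_card_of_injective Φ hΦ

/-- **The presentation of `SU_n(q)` from the certificates.** -/
theorem exists_pres (hF : Fintype.card F = q ^ 2) (hC : C.Sound d q) {rels : List (List ℕ)}
    (hcase : CaseOk C n lets rels) (Ss : List Step) (hok : chainOk rels [] Ss = true)
    (hval : ∀ S ∈ Ss, S.B.Valid)
    (hl : [1] ∈ chainLast [] Ss ∧ [3] ∈ chainLast [] Ss ∧ [5] ∈ chainLast [] Ss)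
    (Ls : List VLevel) (hLs : VChainValid C n lets [] Ls) {M : ℕ} (hN : chainN Ss ≤ M)
    (hP : M ≤ vProd Ls) (hcard : Nat.card (Cfsg.SU n F q) = M) :
    ∃ v : Fin 3 → Cfsg.SU n F q, GKKL.HasPres v rels.length := by
  classical
  obtain ⟨G, hG0, hGinv, hGrel, hact⟩ := exists_letters hC hF hcase
  let f : Fin 3 → Cfsg.SU n F q := ![G 1, G 3, G 5]
  have hG7 : ∀ l, 7 ≤ l → G l = 1 := fun l hl => by
    have h := hGinv l
    rw [show linv l = 0 from List.getD_eq_default _ _ (by simpa [invl] using hl), hG0] at h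
    exact inv_eq_one.1 h.symm
  have hfg : ∀ l, FreeGroup.lift f (fg l) = G l := by
    intro l
    rcases l with _ | _ | _ | _ | _ | _ | _ | l
    · simp [fg, hG0]
    · simp [fg, f]
    · simp [fg, f]; exact (hGinv 1).symm
    · simp [fg, f]
    · simp [fg, f]; exact (hGinv 3).symm
    · simp [fg, f]
    · simp [fg, f]; exact (hGinv 5).symm
    · simp [fg, hG7 (l + 7) (by omega)]
  have hlift : ∀ u, FreeGroup.lift f (pval fg u) = pval G u := fun u => by
    rw [map_pval]
    exact congrArg (fun g => pval g u) (funext hfg)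
  have hrel : ∀ x ∈ (↑(relsF rels) : Set (FreeGroup (Fin 3))), FreeGroup.lift f x = 1 := by
    intro x hx
    rw [Finset.mem_coe, relsF, List.mem_toFinset, List.mem_map] at hx
    obtain ⟨u, hu, rfl⟩ := hx
    rw [hlift, hGrel u hu]
  let π := PresentedGroup.toGroup hrel
  obtain ⟨hfin, hle⟩ := card_presented_le rels Ss hok hval hl
  haveI := hfin
  have hR : ∀ l, G l ∈ π.range := fun l => ⟨PresentedGroup.mk _ (fg l), hfg l⟩
  have hlow : M ≤ Nat.card π.range :=
    (hP.trans (vProd_le hC G hact π.range hR Ls [] hLs)).trans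
      (Nat.card_le_card_of_injective (fun x => (⟨x.1, x.2.1⟩ : π.range)) fun a b h =>
        Subtype.ext (congrArg (fun z : π.range => (z : Cfsg.SU n F q)) h))
  have hrange : π.range = ⊤ :=
    Subgroup.eq_top_of_card_eq _ (le_antisymm (Subgroup.card_le_card_group _) (hcard ▸ hlow))
  have hsurj : Function.Surjective π := MonoidHom.range_eq_top.1 hrange
  have hbij := hsurj.bijective_of_nat_card_le (by rw [hcard]; exact hle.trans hN)
  exact ⟨f, relsF rels, card_relsF rels, MulEquiv.ofBijective π hbij,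
    fun i => PresentedGroup.toGroup.of hrel⟩

end Cfsg.Agent.SUPres.Small
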